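import Cfsg.Agent.H426.FC.Loc
import Cfsg.Agent.S0713

/-!
# S3618, part B: Theorem J and Theorem B
-/

set_option autoImplicit false
set_option linter.unusedSectionVars false

open Equiv Equiv.Perm MulAction

namespace Cfsg.Agent.H426.FC

universe u

/-- the contradiction -/
theorem no_loc {Ω : Type u} (Z : Set (Perm Ω)) (a0 : Ω) (h : ∀ a : Ω, ∃ (B : Type u) (κ : Ω → B), Loc Z a κ) :
    False := by
  classical
  refine no_geometry Z ?_ ?_ ?_ ?_
  · intro a b y hab hay _ hF
    obtain ⟨B, κ, hL⟩ := h a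
    have hk : κ y = κ b := by
      by_contra hne
      obtain ⟨x, hx, hxa, h1, h2⟩ := hL.sep {κ b} (by rw [Finset.card_singleton]; omega) (κ y)
        (by rw [Finset.mem_singleton]; exact hne)
      exact h1 y (Ne.symm hay) rfl (hF x hx hxa (h2 b (Ne.symm hab) (Finset.mem_singleton_self _)))
    intro x hx hxa hxy
    exact hL.eq y b (Ne.symm hay) (Ne.symm hab) hk x hx hxa hxy
  · intro a b hab
    obtain ⟨B, κ, hL⟩ := h a
    obtain ⟨y, hya, hyb, hk⟩ := hL.third b (Ne.symm hab)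
    exact ⟨y, hya, hyb, fun x hx hxa hxb => hL.eq b y (Ne.symm hab) hya hk.symm x hx hxa hxb⟩
  · intro a b b' y hb hb' hy hF
    obtain ⟨B, κ, hL⟩ := h a
    have hk : κ y = κ b ∨ κ y = κ b' := by
      by_contra hne
      push Not at hne
      obtain ⟨x, hx, hxa, h1, h2⟩ := hL.sep {κ b, κ b'} Finset.card_le_two (κ y)
        (by rw [Finset.mem_insert, Finset.mem_singleton]; exact not_or.2 hne)
      exact h1 y hy rfl (hF x hx hxa (h2 b hb (Finset.mem_insert_self _ _))
        (h2 b' hb' (Finset.mem_insert_of_mem (Finset.mem_singleton_self _))))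
    rcases hk with hk | hk
    · exact Or.inl fun x hx hxa hxb => hL.eq b y hb hy hk.symm x hx hxa hxb
    · exact Or.inr fun x hx hxa hxb => hL.eq b' y hb' hy hk.symm x hx hxa hxb
  · obtain ⟨B, κ, hL⟩ := h a0
    obtain ⟨b, b', hb, hb', hk⟩ := hL.ne
    obtain ⟨x, hx, hxa, h1, h2⟩ := hL.sep {κ b} (by rw [Finset.card_singleton]; omega) (κ b')
      (by rw [Finset.mem_singleton]; exact hk.symm)
    exact ⟨a0, b, b', hb, hb', fun h => hk (by rw [h]), x, hx, hxa, h2 b hb (Finset.mem_singleton_self _),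
      h1 b' hb' rfl⟩

/-- the case `n ≥ 2 s`, not 2-transitive, 2-closed -/
theorem no_min {Ω : Type u} [Fintype Ω] [DecidableEq Ω] {p : ℕ} [hp : Fact p.Prime] (hp2 : p ≠ 2)
    {H : Subgroup (Perm Ω)} {s : ℕ} (D : MinData p H s) (hprim : IsPreprimitive H Ω)
    (hnot : ¬ IsMultiplyPretransitive H Ω 2) {x0 : Perm Ω} (hx0 : x0 ∈ XX p H s) (hn : 2 * s ≤ Fintype.card Ω)
    (IH : ∀ (B : Type u) [Fintype B] [DecidableEq B] (K : Subgroup (Perm B)), IsPreprimitive K B → ∀ z ∈ K,
      orderOf z = p → z.support.card < s → 2 * z.support.card ≤ Fintype.card B → alternatingGroup B ≤ K) : False := by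
  have h2 : 2 ≤ s := (fam hx0 hn).two_le
  have : Nonempty Ω := Fintype.card_pos_iff.1 (by omega)
  exact no_loc (XX p H s) (Classical.arbitrary Ω) fun a => exists_loc D hp2 hprim hnot hx0 hn IH a

/-- an element of prime order `p` is a `p`-cycle or moves at least `2 p` points -/
theorem cycle_or {Ω : Type u} [Fintype Ω] [DecidableEq Ω] {p : ℕ} (hp : p.Prime) {x : Perm Ω} (hx : orderOf x = p) :
    (x.IsCycle ∧ x.support.card = p) ∨ 2 * p ≤ x.support.card := by
  rcases Nat.lt_or_ge x.support.card (2 * p) with h | h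
  · left
    have h1 : x.IsCycle := isCycle_of_prime_order (by rw [hx]; exact hp) (by rw [hx]; exact h)
    exact ⟨h1, by rw [← h1.orderOf, hx]⟩
  · exact Or.inr h

/-- the 2-transitive case -/
def TwoTrans (p : ℕ) : Prop :=
  ∀ (Ω : Type u) [Fintype Ω] [DecidableEq Ω] (K : Subgroup (Perm Ω)), IsMultiplyPretransitive K Ω 2 →
    ∀ x ∈ K, orderOf x = p → 2 * p ≤ x.support.card → x.support.card < p ^ 2 → 2 * x.support.card ≤ Fintype.card Ω →
      alternatingGroup Ω ≤ K

theorem exists_minData {Ω : Type u} [Fintype Ω] [DecidableEq Ω] {p : ℕ} {H : Subgroup (Perm Ω)} (hcl : TwoClosed H)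
    {x : Perm Ω} (hx : x ∈ H) (hxp : orderOf x = p) (hs : x.support.card < p ^ 2) :
    ∃ s ≤ x.support.card, MinData p H s ∧ ∃ x0, x0 ∈ XX p H s := by
  classical
  have hex : ∃ s, ∃ z ∈ H, orderOf z = p ∧ z.support.card = s := ⟨_, x, hx, hxp, rfl⟩
  obtain ⟨z, hz, hzp, hzs⟩ := Nat.find_spec hex
  have hle : Nat.find hex ≤ x.support.card := Nat.find_min' hex ⟨x, hx, hxp, rfl⟩
  exact ⟨Nat.find hex, hle, ⟨hcl, lt_of_le_of_lt hle hs, fun w hw hwp => Nat.find_min' hex ⟨w, hw, hwp, rfl⟩⟩, z, hz, hzp, hzs⟩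

/-- THEOREM J -/
theorem thmJ {p : ℕ} [hp : Fact p.Prime] (h2T : TwoTrans.{u} p) : ∀ (n : ℕ) (Ω : Type u) [Fintype Ω] [DecidableEq Ω]
    (K : Subgroup (Perm Ω)), IsPreprimitive K Ω → ∀ x ∈ K, orderOf x = p → x.support.card = n →
    x.support.card < p ^ 2 → 2 * x.support.card ≤ Fintype.card Ω → p + 3 ≤ Fintype.card Ω →
    alternatingGroup Ω ≤ K := by
  intro n
  induction n using Nat.strong_induction_on with
  | _ n ih =>
  intro Ω _ _ K hK x hx hxp hxn hs hn h5
  have hp2 := hp.out.two_le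
  rcases cycle_or hp.out hxp with ⟨hc, hcs⟩ | h2p
  · exact S0713.result K hK hp.out (by omega) h5 hc hcs hx
  have hp3 : p ≠ 2 := by
    rintro rfl
    omega
  by_cases h2 : IsMultiplyPretransitive K Ω 2
  · exact h2T Ω K h2 x hx hxp h2p hs hn
  exfalso
  have hH := isPreprimitive_of_le (le_cl2 K) hK
  obtain ⟨s, hsx, D, x0, hx0⟩ := exists_minData (twoClosed_cl2 K) (le_cl2 K hx) hxp hs
  refine no_min hp3 D hH (not_two_cl2 h2) hx0 (by omega) ?_
  intro B _ _ L hL z hz hzp hzs hzB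
  have hzc : p ≤ z.support.card := by
    rcases cycle_or hp.out hzp with ⟨_, h⟩ | h <;> omega
  exact ih z.support.card (by omega) B L hL z hz hzp rfl (by omega) hzB (by omega)

/-- THEOREM B -/
theorem thmB {p : ℕ} [hp : Fact p.Prime] (h2T : TwoTrans.{u} p) (Ω : Type u) [Fintype Ω] [DecidableEq Ω]
    (K : Subgroup (Perm Ω)) (hK : IsPreprimitive K Ω) (hnot : ¬ IsMultiplyPretransitive K Ω 2) (x : Perm Ω)
    (hx : x ∈ K) (hxp : orderOf x = p) (hs : x.support.card < p ^ 2) : ¬ p ^ 2 ∣ Nat.card K := by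
  intro hd
  have hp2 := hp.out.two_le
  have hH := isPreprimitive_of_le (le_cl2 K) hK
  obtain ⟨s, hsx, D, x0, hx0⟩ := exists_minData (twoClosed_cl2 K) (le_cl2 K hx) hxp hs
  have hn : 2 * s ≤ Fintype.card Ω :=
    D.two_mul_le (hd.trans (Subgroup.card_dvd_of_le (le_cl2 K))) hx0
  have hx0s := hx0.2.2
  have h4 : 4 ≤ Fintype.card Ω := by
    have := (fam hx0 hn).two_le
    omega
  rcases cycle_or hp.out hx0.2.1 with ⟨hc, hcs⟩ | h2p
  · apply not_two_cl2 hnot
    by_cases hp3 : p = 2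
    · have h1 : x0.IsSwap := Perm.card_support_eq_two.1 (by rw [hcs, hp3])
      have h2 := Equiv.Perm.subgroup_eq_top_of_isPreprimitive_of_isSwap_mem hH x0 h1 hx0.1
      exact two_of_alt (by rw [h2]; exact le_top) h4
    · refine two_of_alt ?_ h4
      exact S0713.result (cl2 K) hH hp.out (by omega) (by omega) hc hcs hx0.1
  · have hp3 : p ≠ 2 := by
      rintro rfl
      have := D.lt
      omega
    refine no_min hp3 D hH (not_two_cl2 hnot) hx0 hn ?_
    intro B _ _ L hL z hz hzp hzs hzB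
    have hzc : p ≤ z.support.card := by
      rcases cycle_or hp.out hzp with ⟨_, h⟩ | h <;> omega
    exact thmJ h2T z.support.card B L hL z hz hzp rfl (by have := D.lt; omega) hzB (by omega)

end Cfsg.Agent.H426.FC
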